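import Cfsg.Agent.Spec53.Sz8.Group
import Cfsg.Agent.Spec53.Sp63.Edges
import Cfsg.Agent.SmallIso.FieldChange

/-!
Arbitrarily large groups with the prime graph of `PSp6(3)`.
-/

set_option autoImplicit false

namespace CfsgLib.Spec53.Sz8

theorem unbounded_same_graph_psp6 {F : Type*} [Field F] [Fintype F] (hF : Fintype.card F = 3) (N : ℕ) :
    ∃ (H : Type) (_ : Group H) (_ : Finite H), N < Nat.card H ∧
      ((∀ p : ℕ, p.Prime → (p ∣ Nat.card (Cfsg.PSp 3 F) ↔ p ∣ Nat.card H)) ∧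
      (∀ p q : ℕ, p.Prime → q.Prime → p ≠ q →
        ((∃ g : (Cfsg.PSp 3 F), orderOf g = p * q) ↔ (∃ g : H, orderOf g = p * q)))) := by
  haveI : Fact (Nat.Prime 3) := ⟨Nat.prime_three⟩
  haveI : Fact (Nat.Prime 2) := ⟨Nat.prime_two⟩
  let e : Cfsg.PSp 3 (ZMod 3) ≃* Cfsg.PSp 3 F :=
    CfsgLib.FieldChange.pspEquiv (ZMod.ringEquivOfPrime F Nat.prime_three hF) 3
  let K8 := GaloisField 2 3
  letI : Fintype K8 := Fintype.ofFinite K8
  have hK8 : Fintype.card K8 = 8 := by
    rw [← Nat.card_eq_fintype_card, GaloisField.card 2 3 (by norm_num)]; norm_num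
  obtain ⟨ω, hω⟩ := exists_isGen hK8
  haveI : Finite (KGrp hK8) := Finite.of_equiv _ SemidirectProduct.equivProd.symm
  letI := moduleAction hK8
  obtain ⟨h6, h15, hfv⟩ := K_witnesses hK8 hω
  have hedge : ∀ {p q : ℕ}, p.Prime → q.Prime → p ≠ q →
      ((∃ g : Cfsg.PSp 3 F, orderOf g = p * q) ↔ p * q ∈ ({6, 10, 14, 15} : Finset ℕ)) := by
    intro p q hp hq hpq
    rw [← Sp63.edges hp hq hpq]
    exact ⟨fun ⟨g, hg⟩ => ⟨e.symm g, (e.symm.orderOf_eq g).trans hg⟩,
      fun ⟨g, hg⟩ => ⟨e g, (e.orderOf_eq g).trans hg⟩⟩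
  have hcard : ∀ {p : ℕ}, p.Prime →
      (p ∣ Nat.card (Cfsg.PSp 3 F) ↔ p ∈ ({2, 3, 5, 7, 13} : Finset ℕ)) := fun hp => by
    rw [← Nat.card_congr e.toEquiv, Sp63.card_psp_primes hp]
  have hKp : ∀ {p : ℕ}, p.Prime →
      (p ∣ Nat.card (KGrp hK8) ↔ p ∈ ({2, 3, 5, 7, 13} : Finset ℕ)) := by
    intro p hp
    rw [card_KGrp hK8]
    constructor
    · intro hd
      simp only [Finset.mem_insert, Finset.mem_singleton]
      rcases hp.dvd_mul.1 hd with h | h
      · rcases hp.dvd_mul.1 h with h | h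
        · rcases hp.dvd_mul.1 h with h | h
          · rcases hp.dvd_mul.1 h with h | h
            · exact Or.inl ((Nat.prime_dvd_prime_iff_eq hp Nat.prime_two).1 (hp.dvd_of_dvd_pow h))
            · exact Or.inr (Or.inl ((Nat.prime_dvd_prime_iff_eq hp Nat.prime_three).1 h))
          · exact Or.inr (Or.inr (Or.inl ((Nat.prime_dvd_prime_iff_eq hp Nat.prime_five).1 h)))
        · exact Or.inr (Or.inr (Or.inr (Or.inl ((Nat.prime_dvd_prime_iff_eq hp (by norm_num)).1 h))))
      · exact Or.inr (Or.inr (Or.inr (Or.inr ((Nat.prime_dvd_prime_iff_eq hp (by norm_num)).1 h))))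
    · intro hm
      fin_cases hm <;> norm_num
  refine large_group_of_module (L := KGrp hK8) (V := Matrix (Fin 4) (Fin 4) K8) Nat.prime_two
    (fun v => by rw [two_nsmul]; ext i j; exact CharTwo.add_self_eq_zero _)
    ⟨1, one_ne_zero⟩ ((hcard Nat.prime_two).2 (by decide))
    (fun p hp _ => (hcard hp).trans (hKp hp).symm) ?_ ?_ ?_ N
  · intro p q hp hq hpq hg
    obtain ⟨g, hg⟩ := hg
    refine (hedge hp hq hpq).2 ?_
    have := K_edges hK8 hω hp hq hpq g hg
    simp only [Finset.mem_insert, Finset.mem_singleton] at this ⊢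
    omega
  · rintro r hr hr2 ⟨g, hg, v, hv, hfix⟩
    have h := (hKp hr).1 (hg ▸ orderOf_dvd_natCard g)
    refine (hedge hr Nat.prime_two hr2).2 ?_
    simp only [Finset.mem_insert, Finset.mem_singleton] at h ⊢
    rcases h with rfl | rfl | rfl | rfl | rfl
    · exact absurd rfl hr2
    all_goals first | omega | exact absurd (fix_thirteen hK8 hω hg hfix) hv
  · intro p q hp hq hpq hg
    have h := (hedge hp hq hpq).1 hg
    simp only [Finset.mem_insert, Finset.mem_singleton] at h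
    rcases h with h | h | h | h <;> rw [h]
    · exact Or.inl h6
    · exact Or.inr ⟨5, Nat.prime_five, by norm_num, rfl, hfv 5 (Or.inl rfl)⟩
    · exact Or.inr ⟨7, by norm_num, by norm_num, rfl, hfv 7 (Or.inr rfl)⟩
    · exact Or.inl h15

end CfsgLib.Spec53.Sz8
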