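import Cfsg.Agent.Spec53.Sz8.Field

/-!
Coded four by four matrices over the field with eight elements, and the facts needed about three
elements of `Sz(8)`.
-/

set_option autoImplicit false

namespace CfsgLib.Spec53.Sz8

/-- A coded matrix: a list of four rows. -/
abbrev C4 := List (List ℕ)

/-- An entry. -/
def ent (A : C4) (i j : ℕ) : ℕ := (A.getD i []).getD j 0

/-- The entry of a product. -/
def entMul (A B : C4) (i j : ℕ) : ℕ :=
  mulC (ent A i 0) (ent B 0 j) ^^^ (mulC (ent A i 1) (ent B 1 j) ^^^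
    (mulC (ent A i 2) (ent B 2 j) ^^^ mulC (ent A i 3) (ent B 3 j)))

/-- Product. -/
def mul4 (A B : C4) : C4 := (List.range 4).map fun i => (List.range 4).map fun j => entMul A B i j

/-- Identity. -/
def one4 : C4 := [[1, 0, 0, 0], [0, 1, 0, 0], [0, 0, 1, 0], [0, 0, 0, 1]]

/-- Powers. -/
def pow4 (A : C4) : ℕ → C4
  | 0 => one4
  | n + 1 => mul4 (pow4 A n) A

/-- Trace. -/
def tr4 (A : C4) : ℕ := ent A 0 0 ^^^ (ent A 1 1 ^^^ (ent A 2 2 ^^^ ent A 3 3))

/-- The element of order 13. -/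
def c13 : C4 := [[7, 3, 0, 1], [3, 0, 1, 0], [0, 1, 0, 0], [1, 0, 0, 0]]

/-- The element of order 5. -/
def c5 : C4 := [[1, 1, 0, 1], [1, 0, 1, 0], [0, 1, 0, 0], [1, 0, 0, 0]]

/-- The element of order 7. -/
def c7 : C4 := [[7, 0, 0, 0], [0, 2, 0, 0], [0, 0, 5, 0], [0, 0, 0, 4]]

theorem pow_facts : pow4 c13 13 = one4 ∧ pow4 c5 5 = one4 ∧ pow4 c7 7 = one4 := by decide +kernel

/-- The traces of the powers lie outside the prime field. -/
theorem trace_facts : (∀ k : Fin 12, 1 < tr4 (pow4 c13 (k + 1))) ∧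
    ∀ k : Fin 6, 1 < tr4 (pow4 c7 (k + 1)) := by
  decide +kernel

/-- The sum of the powers of the element of order 13 on the module vanishes. -/
def sumTerm (a b c e : ℕ) : ℕ :=
  ((List.range 13).map fun i =>
    mulC (ent (pow4 c13 i) a b) (frC (ent (pow4 c13 i) c e))).foldr (· ^^^ ·) 0

theorem sum_facts : ∀ a b c e : Fin 4, sumTerm a b c e = 0 := by decide +kernel

/-- The transposed conjugate. -/
def frT (A : C4) : C4 := (List.range 4).map fun i => (List.range 4).map fun j => frC (ent A j i)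

/-- The invariant form. -/
def cJ : C4 := [[0, 0, 0, 1], [0, 0, 1, 0], [0, 1, 0, 0], [1, 0, 0, 0]]

/-- A vector fixed by the element of order 7. -/
def e01 : C4 := [[0, 1, 0, 0], [0, 0, 0, 0], [0, 0, 0, 0], [0, 0, 0, 0]]

theorem fixed_facts : mul4 (mul4 c5 cJ) (frT c5) = cJ ∧ mul4 (mul4 c7 e01) (frT c7) = e01 := by
  decide +kernel

theorem code_values : mulC (mulC 3 3) (mulC 3 3) = 7 ∧ mulC 2 5 = 1 ∧ mulC 7 4 = 1 ∧
    mulC 2 (mulC (mulC 2 2) (mulC 2 2)) = 7 := by
  decide +kernel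

theorem ent_facts : ent one4 0 0 = 1 ∧ c13 ≠ one4 ∧ c5 ≠ one4 ∧ c7 ≠ one4 := by decide +kernel

end CfsgLib.Spec53.Sz8
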