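import Cfsg.Agent.Spec53.Sz8.Codes
import Cfsg.Agent.Spec53.PrimeGraphModule
import Cfsg.Agent.Suzuki.Partition
import Cfsg.Agent.Suzuki.Bridge

/-!
`Sz(8):3` and its module of four by four matrices.
-/

set_option autoImplicit false

namespace CfsgLib.Spec53.Sz8

open Matrix CfsgLib.Suzuki

variable {F : Type*} [Field F] [CharP F 2] {ω : F}

/-- The matrix of a code. -/
def eM (ω : F) (A : C4) : Matrix (Fin 4) (Fin 4) F := Matrix.of fun i j => enc ω (ent A i j)

theorem ent_mul4 (A B : C4) (i j : Fin 4) : ent (mul4 A B) i j = entMul A B i j := by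
  fin_cases i <;> fin_cases j <;> rfl

theorem eM_mul4 (hω : IsGen ω) (A B : C4) : eM ω (mul4 A B) = eM ω A * eM ω B := by
  ext i j
  show enc ω (ent (mul4 A B) i j) = _
  rw [ent_mul4]
  simp [entMul, enc_xor, enc_mul hω, Matrix.mul_apply, Fin.sum_univ_four, eM]
  abel

omit [CharP F 2] in
theorem eM_one4 (ω : F) : eM ω one4 = 1 := by
  ext i j
  fin_cases i <;> fin_cases j <;> simp [eM, ent, one4, enc_zero, enc_one]

theorem trace_eM (A : C4) : (eM ω A).trace = enc ω (tr4 A) := by
  simp [Matrix.trace, Fin.sum_univ_four, eM, tr4, enc_xor]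
  abel

theorem eM_pow4 (hω : IsGen ω) (A : C4) (n : ℕ) : eM ω (pow4 A n) = eM ω A ^ n := by
  induction n with
  | zero => rw [pow4, eM_one4, pow_zero]
  | succ n ih => rw [pow4, eM_mul4 hω, ih, pow_succ]

theorem eM_frT (hω : IsGen ω) (A : C4) :
    eM ω (frT A) = ((eM ω A).map (iterateFrobenius F 2 1))ᵀ := by
  ext i j
  fin_cases i <;> fin_cases j <;>
    simp [eM, frT, ent, enc_fr hω, frobenius_def, iterateFrobenius_def, List.range_succ]

variable [Fintype F]

local notation "Sz8" => grp (theta F 1)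

section

variable (hF : Fintype.card F = 8)

include hF

omit [CharP F 2] in
theorem card_F_pow : Fintype.card F = 2 ^ (2 * 1 + 1) := by rw [hF]; norm_num

omit [CharP F 2] in
theorem pow_eight (x : F) : x ^ 8 = x := hF ▸ FiniteField.pow_card x

theorem hT : TitsEndo (theta F 1) := titsEndo_theta le_rfl (card_F_pow hF)

theorem frob_mod (n : ℕ) : iterateFrobenius F 2 n = iterateFrobenius F 2 (n % 3) := by
  refine RingHom.ext fun x => ?_
  conv_lhs => rw [← Nat.mod_add_div n 3]
  induction n / 3 with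
  | zero => rfl
  | succ k ih =>
    rw [show n % 3 + 3 * (k + 1) = 3 + (n % 3 + 3 * k) by ring, iterateFrobenius_add_apply, ih,
      iterateFrobenius_def, iterateFrobenius_def]
    exact pow_eight hF _

end

/-- The image of a matrix under a power of the Frobenius map. -/
def frS (n : ℕ) : Matrix.SpecialLinearGroup (Fin 4) F →* Matrix.SpecialLinearGroup (Fin 4) F :=
  Matrix.SpecialLinearGroup.map (iterateFrobenius F 2 n)

theorem frS_coe (n : ℕ) (g : Matrix.SpecialLinearGroup (Fin 4) F) :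
    (frS n g : Matrix (Fin 4) (Fin 4) F) =
      (g : Matrix (Fin 4) (Fin 4) F).map (iterateFrobenius F 2 n) := rfl

theorem frS_mem (hF : Fintype.card F = 8) (n : ℕ) {g : Matrix.SpecialLinearGroup (Fin 4) F}
    (hg : g ∈ Sz8) : frS n g ∈ Sz8 := by
  have hc : ∀ x : F, iterateFrobenius F 2 n (theta F 1 x) = theta F 1 (iterateFrobenius F 2 n x) :=
    fun x => by simp [theta, iterateFrobenius_def, ← pow_mul, mul_comm]
  have hov : ∀ a b : F, iterateFrobenius F 2 n (ovF (theta F 1) a b) =
      ovF (theta F 1) (iterateFrobenius F 2 n a) (iterateFrobenius F 2 n b) := fun a b => by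
    simp only [ovF, map_add, map_mul, map_pow, hc]
  have hu : ∀ a b : F, frS n (uMat (theta F 1) a b) =
      uMat (theta F 1) (iterateFrobenius F 2 n a) (iterateFrobenius F 2 n b) := fun a b => by
    refine Subtype.ext ?_
    rw [frS_coe, uMat_coe, uMat_coe]
    ext i j
    fin_cases i <;> fin_cases j <;>
      simp only [Matrix.map_apply, Matrix.of_apply, Matrix.cons_val', Matrix.cons_val_zero,
        Matrix.cons_val_one, Matrix.cons_val, map_add, map_mul, hc, hov, map_zero, map_one,
        Fin.zero_eta, Fin.mk_one, Fin.reduceFinMk]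
  have ht : ∀ t : Fˣ, frS n (tMat (theta F 1) t) =
      tMat (theta F 1) (Units.map (iterateFrobenius F 2 n).toMonoidHom t) := fun t => by
    refine Subtype.ext ?_
    rw [frS_coe, tMat_coe, tMat_coe, Matrix.diagonal_map (map_zero _)]
    congr 1
    ext i
    fin_cases i <;> simp [hc]
  have hw : frS n (wMat : Matrix.SpecialLinearGroup (Fin 4) F) = wMat := by
    refine Subtype.ext ?_
    rw [frS_coe, wMat_coe]
    ext i j
    fin_cases i <;> fin_cases j <;> simp
  have hθ := (hT hF).sq
  rcases grp_cases (hT hF) hg with ⟨a, b, t, rfl⟩ | ⟨a, b, c, e, t, rfl⟩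
  · rw [map_mul, hu, ht]
    exact mul_mem (uMat_mem _ hθ _ _) (tMat_mem _ hθ _)
  · rw [map_mul, map_mul, map_mul, hu, hu, ht, hw]
    exact mul_mem (mul_mem (uMat_mem _ hθ _ _) (wMat_mem _ hθ))
      (mul_mem (uMat_mem _ hθ _ _) (tMat_mem _ hθ _))

theorem frS_frS (a b : ℕ) (g : Matrix.SpecialLinearGroup (Fin 4) F) :
    frS a (frS b g) = frS (a + b) g := by
  refine Subtype.ext ?_
  rw [frS_coe, frS_coe, frS_coe, Matrix.map_map]
  ext i j
  simp [iterateFrobenius_add_apply]

theorem frS_mod (hF : Fintype.card F = 8) (n : ℕ) (g : Matrix.SpecialLinearGroup (Fin 4) F) :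
    frS n g = frS (n % 3) g := by
  refine Subtype.ext ?_
  rw [frS_coe, frS_coe, frob_mod hF]

/-- The Frobenius automorphism group of `Sz(8)`. -/
def fieldAut (hF : Fintype.card F = 8) : Multiplicative (ZMod 3) →* MulAut ↥Sz8 where
  toFun s :=
    { toFun := fun g => ⟨frS (Multiplicative.toAdd s).val g, frS_mem hF _ g.2⟩
      invFun := fun g => ⟨frS (3 - (Multiplicative.toAdd s).val) g, frS_mem hF _ g.2⟩
      left_inv := fun g => Subtype.ext (by
        show frS _ (frS _ _) = _
        have hv := ZMod.val_lt (Multiplicative.toAdd s)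
        rw [frS_frS, frS_mod hF, show (3 - (Multiplicative.toAdd s).val +
          (Multiplicative.toAdd s).val) % 3 = 0 by omega]
        exact Subtype.ext (Matrix.ext fun i j => by simp [frS_coe]))
      right_inv := fun g => Subtype.ext (by
        show frS _ (frS _ _) = _
        have hv := ZMod.val_lt (Multiplicative.toAdd s)
        rw [frS_frS, frS_mod hF, show ((Multiplicative.toAdd s).val +
          (3 - (Multiplicative.toAdd s).val)) % 3 = 0 by omega]
        exact Subtype.ext (Matrix.ext fun i j => by simp [frS_coe]))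
      map_mul' := fun g h => Subtype.ext (map_mul (frS _) _ _) }
  map_one' := MulEquiv.ext fun g => Subtype.ext (Subtype.ext (Matrix.ext fun i j => by
    simp [frS_coe]))
  map_mul' s t := MulEquiv.ext fun g => Subtype.ext (by
    show frS _ _ = frS _ (frS _ _)
    rw [frS_frS, frS_mod hF, frS_mod hF (_ + _), toAdd_mul, ZMod.val_add, Nat.mod_mod])

/-- The group `Sz(8):3`. -/
abbrev KGrp (hF : Fintype.card F = 8) := ↥Sz8 ⋊[fieldAut hF] Multiplicative (ZMod 3)

theorem KGrp.left_mul (hF : Fintype.card F = 8) (x y : KGrp hF) :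
    ((x * y).left : Matrix.SpecialLinearGroup (Fin 4) F) =
      (x.left : Matrix.SpecialLinearGroup (Fin 4) F) *
        frS (Multiplicative.toAdd x.right).val (y.left : Matrix.SpecialLinearGroup (Fin 4) F) := rfl

/-- The matrix of the first component. -/
abbrev lmat {hF : Fintype.card F = 8} (k : KGrp hF) : Matrix (Fin 4) (Fin 4) F :=
  ((k.left : Matrix.SpecialLinearGroup (Fin 4) F) : Matrix (Fin 4) (Fin 4) F)

/-- The exponent of the second component. -/
abbrev rexp {hF : Fintype.card F = 8} (k : KGrp hF) : ℕ := (Multiplicative.toAdd k.right).val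

/-- The semilinear action on matrices. -/
@[instance_reducible]
def moduleAction (hF : Fintype.card F = 8) :
    DistribMulAction (KGrp hF) (Matrix (Fin 4) (Fin 4) F) where
  smul k X := lmat k * X.map (iterateFrobenius F 2 (rexp k)) *
    ((lmat k).map (iterateFrobenius F 2 1))ᵀ
  one_smul X := by
    show lmat (1 : KGrp hF) * X.map _ * _ = X
    simp [lmat, rexp, show (iterateFrobenius F 2 0 : F →+* F) = RingHom.id F from by ext; simp]
  mul_smul x y X := by
    show lmat (x * y) * X.map _ * _ = lmat x * (lmat y * X.map _ * _).map _ * _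
    have hl : lmat (x * y) = lmat x * (lmat y).map (iterateFrobenius F 2 (rexp x)) := by
      simp only [lmat, KGrp.left_mul, Matrix.SpecialLinearGroup.coe_mul, frS_coe]
    have hr : iterateFrobenius F 2 (rexp (x * y)) = iterateFrobenius F 2 (rexp x + rexp y) := by
      rw [frob_mod hF (rexp x + rexp y)]
      simp only [rexp, SemidirectProduct.mul_right, toAdd_mul, ZMod.val_add]
    have hX : X.map (iterateFrobenius F 2 (rexp x + rexp y)) =
        (X.map (iterateFrobenius F 2 (rexp y))).map (iterateFrobenius F 2 (rexp x)) := by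
      ext i j
      simp [iterateFrobenius_add_apply]
    have hc : ((lmat y).map (iterateFrobenius F 2 (rexp x))).map (iterateFrobenius F 2 1) =
        ((lmat y).map (iterateFrobenius F 2 1)).map (iterateFrobenius F 2 (rexp x)) := by
      ext i j
      simp [iterateFrobenius_def, ← pow_mul, mul_comm]
    rw [hl, hr, hX, Matrix.map_mul, Matrix.map_mul, Matrix.map_mul, Matrix.transpose_mul, hc,
      Matrix.transpose_map]
    simp only [Matrix.mul_assoc]
  smul_zero k := by
    show lmat k * (0 : Matrix (Fin 4) (Fin 4) F).map _ * _ = 0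
    simp
  smul_add k X Y := by
    show lmat k * (X + Y).map _ * _ = lmat k * X.map _ * _ + lmat k * Y.map _ * _
    rw [Matrix.map_add _ (map_add _), Matrix.mul_add, Matrix.add_mul]

/-! ### Elements -/

theorem theta_eq (x : F) : theta F 1 x = x * x * (x * x) := by
  rw [theta_apply]; ring

theorem exists_code_elements (hF : Fintype.card F = 8) (hω : IsGen ω) :
    ∃ y13 y5 y7 : ↥Sz8,
      ((y13 : Matrix.SpecialLinearGroup (Fin 4) F) : Matrix (Fin 4) (Fin 4) F) = eM ω c13 ∧
      ((y5 : Matrix.SpecialLinearGroup (Fin 4) F) : Matrix (Fin 4) (Fin 4) F) = eM ω c5 ∧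
      ((y7 : Matrix.SpecialLinearGroup (Fin 4) F) : Matrix (Fin 4) (Fin 4) F) = eM ω c7 := by
  obtain ⟨v1, v2, v3, v4⟩ := code_values
  have hθ := (hT hF).sq
  have h3 : theta F 1 (enc ω 3) = enc ω 7 := by
    rw [theta_eq, ← enc_mul hω, ← enc_mul hω, v1]
  have h5 : enc ω 2 * enc ω 5 = 1 := by rw [← enc_mul hω, v2, enc_one]
  have h74 : enc ω 7 * enc ω 4 = 1 := by rw [← enc_mul hω, v3, enc_one]
  have hne : enc ω 2 ≠ 0 := left_ne_zero_of_mul_eq_one h5
  have h7 : enc ω 2 * theta F 1 (enc ω 2) = enc ω 7 := by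
    rw [theta_eq, ← enc_mul hω, ← enc_mul hω, ← enc_mul hω, v4]
  refine ⟨⟨_, mul_mem (uMat_mem _ hθ 0 (enc ω 3)) (wMat_mem _ hθ)⟩,
    ⟨_, mul_mem (uMat_mem _ hθ 0 1) (wMat_mem _ hθ)⟩,
    ⟨_, tMat_mem _ hθ (Units.mk0 _ hne)⟩, ?_, ?_, ?_⟩
  · rw [Matrix.SpecialLinearGroup.coe_mul, uMat_coe, wMat_coe]
    ext i j
    fin_cases i <;> fin_cases j <;>
      simp [eM, ent, c13, ovF, h3, enc_zero, enc_one, Matrix.mul_apply, Fin.sum_univ_four]
  · rw [Matrix.SpecialLinearGroup.coe_mul, uMat_coe, wMat_coe]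
    ext i j
    fin_cases i <;> fin_cases j <;>
      simp [eM, ent, c5, ovF, enc_zero, enc_one, Matrix.mul_apply, Fin.sum_univ_four]
  · rw [tMat_coe]
    ext i j
    fin_cases i <;> fin_cases j <;>
      simp [eM, ent, c7, h7, enc_zero, eq_inv_of_mul_eq_one_right h5,
        eq_inv_of_mul_eq_one_right h74]

theorem smat_pow (g : ↥Sz8) (n : ℕ) :
    ((g ^ n : ↥Sz8) : Matrix.SpecialLinearGroup (Fin 4) F).1 =
      ((g : Matrix.SpecialLinearGroup (Fin 4) F) : Matrix (Fin 4) (Fin 4) F) ^ n := by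
  rw [SubmonoidClass.coe_pow]
  exact Matrix.SpecialLinearGroup.coe_pow _ _

theorem orderOf_code (hω : IsGen ω) {g : ↥Sz8} {A : C4} {r : ℕ} [Fact r.Prime]
    (hg : ((g : Matrix.SpecialLinearGroup (Fin 4) F) : Matrix (Fin 4) (Fin 4) F) = eM ω A)
    (h : pow4 A r = one4) (hne : A.length = 4 ∧ ∃ i j : Fin 4, ent A i j ≠ ent one4 i j ∧
      ent A i j < 8 ∧ ent one4 i j < 8) : orderOf g = r := by
  refine orderOf_eq_prime (Subtype.ext (Subtype.ext ?_)) ?_
  · rw [smat_pow, hg, ← eM_pow4 hω, h, eM_one4]; rfl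
  · intro e
    obtain ⟨-, i, j, hij, ha, hb⟩ := hne
    rw [e] at hg
    have h1 : eM ω one4 = eM ω A := by rw [eM_one4, ← hg]; rfl
    exact hij (enc_inj hω hb ha (congrFun (congrFun h1 i) j)).symm

theorem card_Sz8 (hF : Fintype.card F = 8) : Nat.card ↥Sz8 = 29120 := by
  rw [card_grp (hT hF), Nat.card_eq_fintype_card, hF]
  norm_num

theorem sylow_cases (hF : Fintype.card F = 8) {r : ℕ} [Fact r.Prime] (hr : r = 7 ∨ r = 13)
    {x c : ↥Sz8} (hx : orderOf x = r) (hc : orderOf c = r) :
    ∃ (a : ↥Sz8) (k : ℕ), k < r ∧ x = a * c ^ k * a⁻¹ := by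
  have hsyl : ∀ k : Subgroup ↥Sz8, Nat.card k = r →
      ∃ S : Sylow r ↥Sz8, (S : Subgroup ↥Sz8) = k := fun k hk => by
    refine ⟨(IsPGroup.of_card (n := 1) (by rw [hk, pow_one])).toSylow ?_, rfl⟩
    intro hd
    have h1 := k.card_mul_index
    rw [card_Sz8 hF, hk] at h1
    rcases hr with rfl | rfl <;> omega
  obtain ⟨S, hS⟩ := hsyl (Subgroup.zpowers x) (by rw [Nat.card_zpowers, hx])
  obtain ⟨T, hT'⟩ := hsyl (Subgroup.zpowers c) (by rw [Nat.card_zpowers, hc])
  obtain ⟨a, ha⟩ := MulAction.exists_smul_eq ↥Sz8 T S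
  have hmem : x ∈ Subgroup.zpowers x := Subgroup.mem_zpowers x
  rw [← hS, ← ha, Sylow.coe_subgroup_smul, hT'] at hmem
  obtain ⟨w, hw, hwx⟩ := hmem
  obtain ⟨k, hk⟩ := mem_powers_iff_mem_zpowers.2 hw
  refine ⟨a, k % r, Nat.mod_lt _ (Fact.out : r.Prime).pos, ?_⟩
  rw [← hc, pow_mod_orderOf, show c ^ k = w from hk]
  exact hwx.symm

/-- No element of `Sz(8)` has order the product of two distinct primes. -/
theorem Sz8_no_pq (hF : Fintype.card F = 8) {p q : ℕ} (hp : p.Prime) (hq : q.Prime) (hpq : p ≠ q)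
    (g : ↥Sz8) : orderOf g ≠ p * q := by
  intro hg
  have hm : (1 : ℕ) ≤ 1 := le_rfl
  have hF' := card_F_pow hF
  have hne : g ≠ 1 := fun e => by
    rw [e, orderOf_one] at hg
    exact hp.one_lt.ne' (Nat.eq_one_of_mul_eq_one_right hg.symm)
  rcases translation_or_centralizer hm hF' hne with ⟨x, hx⟩ | ⟨-, hk⟩
  · obtain ⟨e, he⟩ := orderOf_of_translation hm hF' hx
    rw [hg] at he
    exact hpq (((Nat.prime_dvd_prime_iff_eq hp Nat.prime_two).1
      (hp.dvd_of_dvd_pow (he ▸ dvd_mul_right p q))).trans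
      ((Nat.prime_dvd_prime_iff_eq hq Nat.prime_two).1
        (hq.dvd_of_dvd_pow (he ▸ dvd_mul_left q p))).symm)
  · have hd := orderOf_mem_centralizer (g := g) (h := g) rfl
    rw [hg] at hd
    simp only [Set.mem_insert_iff, Set.mem_singleton_iff] at hk
    have hprime : (Nat.card (Subgroup.centralizer ({g} : Set ↥Sz8))).Prime := by
      rcases hk with e | e | e <;> rw [e] <;> norm_num
    rcases (Nat.dvd_prime hprime).1 hd with e | e
    · exact hp.one_lt.ne' (Nat.eq_one_of_mul_eq_one_right e)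
    · exact Nat.not_prime_mul hp.one_lt.ne' hq.one_lt.ne' (e ▸ hprime)

theorem card_KGrp (hF : Fintype.card F = 8) : Nat.card (KGrp hF) = 2 ^ 6 * 3 * 5 * 7 * 13 := by
  rw [SemidirectProduct.card, card_Sz8 hF, Nat.card_congr Multiplicative.toAdd, Nat.card_zmod]
  norm_num

theorem enc_ne_bool (hω : IsGen ω) {a : ℕ} (h1 : 1 < a) (h8 : a < 8) :
    enc ω a * enc ω a ≠ enc ω a := by
  intro h
  rcases mul_eq_left₀ (a := enc ω a) |> (fun e => (em (enc ω a = 0)).imp id fun hz => (e hz).1 h)
    with h0 | h0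
  · exact absurd (enc_inj hω h8 (by omega) (h0.trans (enc_zero ω).symm)) (by omega)
  · exact absurd (enc_inj hω h8 (by omega) (h0.trans (enc_one ω).symm)) (by omega)

theorem tr4_lt (A : C4) : ∀ n, tr4 (pow4 A (n + 1)) < 8 := by
  intro n
  have h : ∀ (B : C4) (i j : Fin 4), ent (mul4 B A) i j < 8 := fun B i j => by
    rw [ent_mul4]
    exact Nat.xor_lt_two_pow (n := 3) (Nat.mod_lt _ (by omega))
      (Nat.xor_lt_two_pow (Nat.mod_lt _ (by omega))
        (Nat.xor_lt_two_pow (Nat.mod_lt _ (by omega)) (Nat.mod_lt _ (by omega))))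
  exact Nat.xor_lt_two_pow (n := 3) (h _ 0 0)
    (Nat.xor_lt_two_pow (h _ 1 1) (Nat.xor_lt_two_pow (h _ 2 2) (h _ 3 3)))

/-- An element outside `Sz(8)` commutes with no element of order 7 or 13 of `Sz(8)`. -/
theorem not_commute_outer (hF : Fintype.card F = 8) (hω : IsGen ω) {r : ℕ} [Fact r.Prime]
    (hr : r = 7 ∨ r = 13) {c : ↥Sz8} {A : C4}
    (hc : ((c : Matrix.SpecialLinearGroup (Fin 4) F) : Matrix (Fin 4) (Fin 4) F) = eM ω A)
    (hord : orderOf c = r) (htr : ∀ k, 0 < k → k < r → 1 < tr4 (pow4 A k)) {g y : KGrp hF}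
    (hy : y.right = 1) (hyr : orderOf y = r) (hg : g.right ≠ 1) : ¬ Commute g y := by
  intro hcomm
  have hy' : y = SemidirectProduct.inl y.left := SemidirectProduct.ext rfl hy
  have hyo : orderOf y.left = r := by
    rw [← hyr, hy', orderOf_injective _ SemidirectProduct.inl_injective, SemidirectProduct.left_inl]
  obtain ⟨a, k, hkr, hk⟩ := sylow_cases hF hr hyo hord
  have hk0 : 0 < k := by
    by_contra h0
    rw [show k = 0 by omega, pow_zero, mul_one, mul_inv_cancel] at hk
    rw [hk, orderOf_one] at hyo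
    exact (Fact.out : r.Prime).one_lt.ne hyo
  obtain ⟨j, rfl⟩ : ∃ j, k = j + 1 := ⟨k - 1, by omega⟩
  have htrace : (lmat y).trace = enc ω (tr4 (pow4 A (j + 1))) := by
    rw [← trace_eM, eM_pow4 hω, ← hc, ← smat_pow]
    have : lmat y = ((a : Matrix.SpecialLinearGroup (Fin 4) F) : Matrix (Fin 4) (Fin 4) F) *
        ((c ^ (j + 1) : ↥Sz8) : Matrix.SpecialLinearGroup (Fin 4) F).1 *
        ((a⁻¹ : ↥Sz8) : Matrix.SpecialLinearGroup (Fin 4) F).1 := by
      show ((y.left : Matrix.SpecialLinearGroup (Fin 4) F)).1 = _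
      rw [hk]; rfl
    rw [this, Matrix.trace_mul_comm, ← Matrix.mul_assoc]
    have h1 : ((a⁻¹ : ↥Sz8) : Matrix.SpecialLinearGroup (Fin 4) F).1 *
        ((a : Matrix.SpecialLinearGroup (Fin 4) F) : Matrix (Fin 4) (Fin 4) F) = 1 := by
      rw [← Matrix.SpecialLinearGroup.coe_mul, ← Subgroup.coe_mul, inv_mul_cancel]; rfl
    rw [h1, Matrix.one_mul]
  have hl := congrArg SemidirectProduct.left hcomm.eq
  have he := congrArg (fun w : ↥Sz8 => (w : Matrix.SpecialLinearGroup (Fin 4) F)) hl
  simp only [KGrp.left_mul] at he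
  rw [hy] at he
  have he' := congrArg (fun w : Matrix.SpecialLinearGroup (Fin 4) F => w.1) he
  simp only [Matrix.SpecialLinearGroup.coe_mul, frS_coe, toAdd_one, ZMod.val_zero] at he'
  rw [show ((g.left : Matrix.SpecialLinearGroup (Fin 4) F).1).map (iterateFrobenius F 2 0) = lmat g by
    ext i j; simp] at he'
  have hinv : lmat g * ((g.left⁻¹ : ↥Sz8) : Matrix.SpecialLinearGroup (Fin 4) F).1 = 1 := by
    rw [← Matrix.SpecialLinearGroup.coe_mul, ← Subgroup.coe_mul, mul_inv_cancel]; rfl
  have ht : iterateFrobenius F 2 (rexp g) (lmat y).trace = (lmat y).trace := by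
    rw [map_trace_eq]
    have e : (lmat y).map (iterateFrobenius F 2 (rexp g)) =
        ((g.left⁻¹ : ↥Sz8) : Matrix.SpecialLinearGroup (Fin 4) F).1 * (lmat y * lmat g) := by
      rw [← he', ← Matrix.mul_assoc, mul_eq_one_comm.1 hinv, Matrix.one_mul]
    rw [e, Matrix.trace_mul_comm, Matrix.mul_assoc, hinv, Matrix.mul_one]
  rw [htrace] at ht
  have hne := enc_ne_bool hω (htr _ hk0 hkr) (tr4_lt A j)
  generalize enc ω (tr4 (pow4 A (j + 1))) = t at ht hne
  have hlt : rexp g < 3 := ZMod.val_lt _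
  have h0 : rexp g ≠ 0 := fun h => hg (Multiplicative.toAdd.injective
    ((ZMod.val_eq_zero _).1 h))
  have h8 := pow_eight hF t
  rw [iterateFrobenius_def] at ht
  refine hne ?_
  rcases (by omega : rexp g = 1 ∨ rexp g = 2) with e | e <;> rw [e] at ht <;> norm_num at ht
  · rw [← sq]; exact ht
  · calc t * t = t ^ 4 * t ^ 4 := by rw [ht]
      _ = t ^ 8 := by ring
      _ = t := h8
where
  map_trace_eq {n : ℕ} {M : Matrix (Fin 4) (Fin 4) F} :
      iterateFrobenius F 2 n M.trace = (M.map (iterateFrobenius F 2 n)).trace := by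
    simp [Matrix.trace, map_sum]

theorem K_right_of_orderOf (hF : Fintype.card F = 8) (x : KGrp hF) {d : ℕ} (hd : orderOf x = d)
    (h3 : Nat.Coprime d 3) : x.right = 1 := by
  have h1 : orderOf x.right ∣ d := hd ▸ orderOf_map_dvd SemidirectProduct.rightHom x
  have h2 : orderOf x.right ∣ 3 := by
    have := orderOf_dvd_natCard x.right
    rwa [Nat.card_congr Multiplicative.toAdd, Nat.card_zmod] at this
  exact orderOf_eq_one_iff.1 (Nat.dvd_one.1 ((Nat.dvd_gcd h1 h2).trans h3.gcd_eq_one.dvd))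

theorem K_left_orderOf (hF : Fintype.card F = 8) (x : KGrp hF) (h : x.right = 1) :
    orderOf x.left = orderOf x := by
  conv_rhs => rw [show x = SemidirectProduct.inl x.left from SemidirectProduct.ext rfl h,
    orderOf_injective _ SemidirectProduct.inl_injective]

/-- The only edges of the prime graph of `Sz(8):3` are at `6` and `15`. -/
theorem K_edges (hF : Fintype.card F = 8) (hω : IsGen ω) {p q : ℕ} (hp : p.Prime) (hq : q.Prime)
    (hpq : p ≠ q) (g : KGrp hF) (hg : orderOf g = p * q) : p * q ∈ ({6, 15} : Finset ℕ) := by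
  obtain ⟨y13, y5, y7, h13, h5, h7⟩ := exists_code_elements hF hω
  haveI : Fact (Nat.Prime 13) := ⟨by norm_num⟩
  haveI : Fact (Nat.Prime 7) := ⟨by norm_num⟩
  have o13 : orderOf y13 = 13 := orderOf_code hω h13 pow_facts.1
    ⟨rfl, 0, 0, by decide, by decide, by decide⟩
  have o7 : orderOf y7 = 7 := orderOf_code hω h7 pow_facts.2.2
    ⟨rfl, 0, 0, by decide, by decide, by decide⟩
  have key : ∀ r : ℕ, r.Prime → r ≠ 3 → orderOf g = 3 * r → r = 2 ∨ r = 5 := by
    intro r hr hr3 hord
    have hcop : Nat.Coprime r 3 := (Nat.coprime_primes hr Nat.prime_three).2 hr3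
    by_cases hgr : g.right = 1
    · exact absurd ((K_left_orderOf hF g hgr).trans hord)
        (Sz8_no_pq hF Nat.prime_three hr (Ne.symm hr3) g.left)
    have hy : orderOf (g ^ 3) = r := by
      rw [orderOf_pow' g (by norm_num), hord, Nat.gcd_mul_right_left,
        Nat.mul_div_cancel_left _ (by norm_num)]
    have hyr := K_right_of_orderOf hF _ hy hcop
    have hd : r ∣ 2 ^ 6 * 3 * 5 * 7 * 13 := by
      rw [← card_KGrp hF, ← hy]; exact orderOf_dvd_natCard _
    by_contra hcon
    have hr' : r = 7 ∨ r = 13 := by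
      rcases hr.dvd_mul.1 hd with h | h
      · rcases hr.dvd_mul.1 h with h | h
        · rcases hr.dvd_mul.1 h with h | h
          · rcases hr.dvd_mul.1 h with h | h
            · exact absurd (Or.inl ((Nat.prime_dvd_prime_iff_eq hr Nat.prime_two).1
                (hr.dvd_of_dvd_pow h))) hcon
            · exact absurd ((Nat.prime_dvd_prime_iff_eq hr Nat.prime_three).1 h) hr3
          · exact absurd (Or.inr ((Nat.prime_dvd_prime_iff_eq hr Nat.prime_five).1 h)) hcon
        · exact Or.inl ((Nat.prime_dvd_prime_iff_eq hr (by norm_num)).1 h)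
      · exact Or.inr ((Nat.prime_dvd_prime_iff_eq hr (by norm_num)).1 h)
    rcases hr' with rfl | rfl
    · refine not_commute_outer hF hω (Or.inl rfl) h7 o7 (fun k hk hk' => ?_) hyr hy hgr
        (Commute.self_pow g 3)
      obtain ⟨j, rfl⟩ : ∃ j, k = j + 1 := ⟨k - 1, by omega⟩
      exact trace_facts.2 ⟨j, by omega⟩
    · refine not_commute_outer hF hω (Or.inr rfl) h13 o13 (fun k hk hk' => ?_) hyr hy hgr
        (Commute.self_pow g 3)
      obtain ⟨j, rfl⟩ : ∃ j, k = j + 1 := ⟨k - 1, by omega⟩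
      exact trace_facts.1 ⟨j, by omega⟩
  by_cases hp3 : p = 3
  · subst hp3
    rcases key q hq (Ne.symm hpq) hg with rfl | rfl <;> decide
  by_cases hq3 : q = 3
  · subst hq3
    rcases key p hp hpq (hg.trans (Nat.mul_comm _ _)) with rfl | rfl <;> decide
  exfalso
  have hr := K_right_of_orderOf hF g hg
    (Nat.Coprime.mul_left ((Nat.coprime_primes hp Nat.prime_three).2 hp3)
      ((Nat.coprime_primes hq Nat.prime_three).2 hq3))
  exact Sz8_no_pq hF hp hq hpq g.left ((K_left_orderOf hF g hr).trans hg)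

theorem inl_smul (hF : Fintype.card F = 8) (g : ↥Sz8) (X : Matrix (Fin 4) (Fin 4) F) :
    letI := moduleAction hF
    (SemidirectProduct.inl g : KGrp hF) • X =
      (g : Matrix.SpecialLinearGroup (Fin 4) F).1 * X *
        (((g : Matrix.SpecialLinearGroup (Fin 4) F).1).map (iterateFrobenius F 2 1))ᵀ := by
  show lmat _ * X.map (iterateFrobenius F 2 _) * _ = _
  simp [lmat, rexp, show (iterateFrobenius F 2 0 : F →+* F) = RingHom.id F from by ext; simp]

/-- The element of order 13 has no fixed vector. -/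
theorem fix_thirteen (hF : Fintype.card F = 8) (hω : IsGen ω) {x : KGrp hF} (hx : orderOf x = 13)
    {v : Matrix (Fin 4) (Fin 4) F}
    (hv : letI := moduleAction hF; x • v = v) : v = 0 := by
  letI := moduleAction hF
  haveI : Fact (Nat.Prime 13) := ⟨by norm_num⟩
  obtain ⟨y13, -, -, h13, -, -⟩ := exists_code_elements hF hω
  have o13 : orderOf y13 = 13 := orderOf_code hω h13 pow_facts.1
    ⟨rfl, 0, 0, by decide, by decide, by decide⟩
  have hr := K_right_of_orderOf hF x hx (by decide)
  obtain ⟨a, k, hk, hak⟩ := sylow_cases hF (Or.inr rfl) ((K_left_orderOf hF x hr).trans hx) o13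
  have hxk : x = SemidirectProduct.inl a * SemidirectProduct.inl y13 ^ k *
      (SemidirectProduct.inl a)⁻¹ := by
    rw [← map_pow, ← map_inv, ← map_mul, ← map_mul, ← hak]
    exact SemidirectProduct.ext rfl hr
  set Y := (SemidirectProduct.inl a : KGrp hF)⁻¹ • v
  have hY : (SemidirectProduct.inl y13 : KGrp hF) ^ k • Y = Y := by
    rw [← mul_smul]
    conv_rhs => rw [show Y = (SemidirectProduct.inl a : KGrp hF)⁻¹ • (x • v) by rw [hv]]
    rw [hxk, ← mul_smul]
    congr 1
    group
  have hy1 : (SemidirectProduct.inl y13 : KGrp hF) ^ 13 = 1 := by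
    rw [← map_pow, ← o13, pow_orderOf_eq_one, map_one]
  have hk0 : k ≠ 0 := by
    rintro rfl
    rw [pow_zero, mul_one, mul_inv_cancel] at hxk
    rw [hxk, orderOf_one] at hx
    omega
  have hall : ∀ i : ℕ, (SemidirectProduct.inl y13 : KGrp hF) ^ i • Y = Y := by
    have hst : (SemidirectProduct.inl y13 : KGrp hF) ^ k ∈ MulAction.stabilizer (KGrp hF) Y := hY
    intro i
    have hcop : Nat.Coprime k 13 := ((by norm_num : Nat.Prime 13).coprime_iff_not_dvd.2
      (fun h => by have := Nat.le_of_dvd (by omega) h; omega)).symm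
    obtain ⟨m, hm⟩ := exists_pow_eq_self_of_coprime (n := k)
      (x := (SemidirectProduct.inl y13 : KGrp hF))
      (by rw [orderOf_injective _ SemidirectProduct.inl_injective, o13]; exact hcop)
    have hmem : (SemidirectProduct.inl y13 : KGrp hF) ∈ MulAction.stabilizer (KGrp hF) Y := by
      rw [← hm]; exact pow_mem hst m
    exact pow_mem hmem i
  have hsum : ∑ i ∈ Finset.range 13, (SemidirectProduct.inl y13 : KGrp hF) ^ i • Y = 0 := by
    ext p r
    simp only [← map_pow, inl_smul, Matrix.sum_apply, Matrix.mul_apply, Matrix.transpose_apply,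
      Matrix.map_apply, Finset.sum_mul, smat_pow, h13, ← eM_pow4 hω, Matrix.zero_apply]
    rw [Finset.sum_comm]
    refine Finset.sum_eq_zero fun e _ => ?_
    rw [Finset.sum_comm]
    refine Finset.sum_eq_zero fun b _ => ?_
    have key : ∑ i ∈ Finset.range 13, eM ω (pow4 c13 i) p b *
        iterateFrobenius F 2 1 (eM ω (pow4 c13 i) r e) = enc ω (sumTerm p b r e) := by
      simp only [eM, Matrix.of_apply, sumTerm, iterateFrobenius_def, pow_one]
      simp [Finset.sum_range_succ, List.range_succ, enc_xor, enc_mul hω, enc_fr hω, enc_zero]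
      abel
    rw [sum_facts, enc_zero] at key
    calc ∑ i ∈ Finset.range 13, eM ω (pow4 c13 i) p b * Y b e *
          iterateFrobenius F 2 1 (eM ω (pow4 c13 i) r e)
        = (∑ i ∈ Finset.range 13, eM ω (pow4 c13 i) p b *
          iterateFrobenius F 2 1 (eM ω (pow4 c13 i) r e)) * Y b e := by
          rw [Finset.sum_mul]; exact Finset.sum_congr rfl fun i _ => by ring
      _ = 0 := by rw [key, zero_mul]
  rw [Finset.sum_congr rfl fun i _ => hall i, Finset.sum_const, Finset.card_range] at hsum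
  have hY0 : Y = 0 := by
    ext p r
    have := congrFun (congrFun hsum p) r
    rw [Matrix.smul_apply, Matrix.zero_apply, nsmul_eq_mul] at this
    have h13' : ((13 : ℕ) : F) = 1 := by
      rw [show 13 = 2 * 6 + 1 by norm_num, Nat.cast_add, Nat.cast_mul]
      simp [CharTwo.two_eq_zero]
    rw [h13', one_mul] at this
    exact this
  exact (smul_eq_zero_iff_eq (SemidirectProduct.inl a : KGrp hF)⁻¹).1 hY0

/-- Elements of orders 6 and 15, and fixed vectors of elements of orders 5 and 7. -/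
theorem K_witnesses (hF : Fintype.card F = 8) (hω : IsGen ω) :
    letI := moduleAction hF
    (∃ g : KGrp hF, orderOf g = 6) ∧ (∃ g : KGrp hF, orderOf g = 15) ∧
      (∀ r, r = 5 ∨ r = 7 → ∃ g : KGrp hF, orderOf g = r ∧
        ∃ v : Matrix (Fin 4) (Fin 4) F, v ≠ 0 ∧ g • v = v) := by
  letI := moduleAction hF
  haveI : Fact (Nat.Prime 5) := ⟨Nat.prime_five⟩
  haveI : Fact (Nat.Prime 7) := ⟨by norm_num⟩
  obtain ⟨-, y5, y7, -, h5, h7⟩ := exists_code_elements hF hω
  have o5 : orderOf y5 = 5 := orderOf_code hω h5 pow_facts.2.1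
    ⟨rfl, 1, 1, by decide, by decide, by decide⟩
  have o7 : orderOf y7 = 7 := orderOf_code hω h7 pow_facts.2.2
    ⟨rfl, 0, 0, by decide, by decide, by decide⟩
  let σ : KGrp hF := SemidirectProduct.inr (Multiplicative.ofAdd (1 : ZMod 3))
  have hσ : orderOf σ = 3 := by
    rw [orderOf_injective _ SemidirectProduct.inr_injective, orderOf_ofAdd_eq_addOrderOf,
      ZMod.addOrderOf_one]
  have hfix : ∀ y : ↥Sz8, (∀ i j, iterateFrobenius F 2 1
      ((y : Matrix.SpecialLinearGroup (Fin 4) F).1 i j) =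
        (y : Matrix.SpecialLinearGroup (Fin 4) F).1 i j) →
      Commute σ (SemidirectProduct.inl y) := by
    intro y hy
    refine SemidirectProduct.ext (Subtype.ext (Subtype.ext (Matrix.ext fun i j => ?_))) (by simp [σ])
    simp only [σ, KGrp.left_mul]
    simp [frS_coe, show (1 : ZMod 3).val = 1 from rfl]
    simpa [iterateFrobenius_def, frobenius_def] using hy i j
  let w : ↥Sz8 := ⟨wMat, wMat_mem _ (hT hF).sq⟩
  have hw : orderOf w = 2 := by
    haveI : Fact (Nat.Prime 2) := ⟨Nat.prime_two⟩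
    refine orderOf_eq_prime (by rw [sq]; exact Subtype.ext wMat_mul_self) fun e => ?_
    have := congrArg (fun z : ↥Sz8 => (z : Matrix.SpecialLinearGroup (Fin 4) F).1 0 0) e
    simp [w, wMat_coe] at this
  refine ⟨⟨σ * SemidirectProduct.inl w, ?_⟩, ⟨σ * SemidirectProduct.inl y5, ?_⟩, ?_⟩
  · rw [(hfix w fun i j => by fin_cases i <;> fin_cases j <;> simp [w, wMat_coe]
      ).orderOf_mul_eq_mul_orderOf_of_coprime
        (by rw [hσ, orderOf_injective _ SemidirectProduct.inl_injective, hw]; decide),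
      hσ, orderOf_injective _ SemidirectProduct.inl_injective, hw]
  · rw [(hfix y5 fun i j => by
      rw [h5]; fin_cases i <;> fin_cases j <;>
        simp [eM, ent, c5, enc_zero, enc_one]
      ).orderOf_mul_eq_mul_orderOf_of_coprime
        (by rw [hσ, orderOf_injective _ SemidirectProduct.inl_injective, o5]; decide),
      hσ, orderOf_injective _ SemidirectProduct.inl_injective, o5]
  · rintro r (rfl | rfl)
    · refine ⟨SemidirectProduct.inl y5, by rw [orderOf_injective _ SemidirectProduct.inl_injective, o5],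
        eM ω cJ, fun e => ?_, ?_⟩
      · simpa [eM, ent, cJ, enc_one] using congrFun (congrFun e 0) 3
      · rw [inl_smul, h5, ← eM_frT hω, ← eM_mul4 hω, ← eM_mul4 hω, fixed_facts.1]
    · refine ⟨SemidirectProduct.inl y7, by rw [orderOf_injective _ SemidirectProduct.inl_injective, o7],
        eM ω e01, fun e => ?_, ?_⟩
      · simpa [eM, ent, e01, enc_one] using congrFun (congrFun e 0) 1
      · rw [inl_smul, h7, ← eM_frT hω, ← eM_mul4 hω, ← eM_mul4 hω, fixed_facts.2]

end CfsgLib.Spec53.Sz8
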